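import Cfsg.Agent.R2.Spec.X3.PO.NumII

/-!
# X3, `PΩ^±_{2m}(u)`, `m` odd: the numerics, type II, end (helper5)
-/

set_option autoImplicit false

namespace Cfsg.Agent.R2.Spec.X3.PO

/-- the region, the other cases -/
theorem regB {y z M : ℤ} (hy7 : 7 ≤ y) (hz16 : 16 ≤ z) (h1 : 4 * y ^ 2 ≤ 13 * M) (h2 : M ≤ 2 * z)
    (h3 : z ^ 2 ≤ 4 * y ^ 3 + 1 ∨ z ≤ 3 * y + 4) : y < 500 ∧ z - 1 ≤ (y ^ 2 + 1) * (y + 1) := by
  have h4 : 2 * y ^ 2 ≤ 13 * z := by linarith
  have hy2 : 0 < y ^ 2 := by positivity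
  have hy3 : 0 < y ^ 3 := by positivity
  have e1 : 7 * y ^ 2 ≤ y ^ 3 := by nlinarith
  rcases h3 with h3 | h3
  · constructor
    · by_contra hc
      push Not at hc
      have h5 : (2 * y ^ 2) ^ 2 ≤ (13 * z) ^ 2 := pow_le_pow_left₀ (by positivity) h4 2
      have h6 : 500 * y ^ 3 ≤ y ^ 4 := by nlinarith
      nlinarith
    · by_contra hc
      push Not at hc
      have h5 : y ^ 3 ≤ z := by nlinarith
      have h6 : y ^ 3 * y ^ 3 ≤ z ^ 2 := by
        rw [sq]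
        exact mul_le_mul h5 h5 hy3.le (by omega)
      have h7 : 343 ≤ y ^ 3 := by nlinarith
      nlinarith
  · constructor
    · nlinarith
    · nlinarith

/-- **type II** -/
theorem numII {p M X Y u j z : ℕ} {x δ : ℤ} (hp0 : 0 < p) (hpx : (p : ℤ) ≤ |x|) (hdv : (p : ℤ) ∣ x)
    (hx4 : x % 4 = 3) (hx : 7 ≤ x ∨ x ≤ -13) (hδ : (δ = 1 ∧ x % 3 ≠ 1) ∨ (δ = 3 ∧ x % 3 = 1))
    (hM : δ * (M : ℤ) = x ^ 2 + x + 1) (hu : 2 ≤ u) (hz : z = u ^ (2 * j + 4))
    (hle : (u - 1) * M ≤ u * z) (hd : M ∣ u * z - 1 ∨ M ∣ u * z + 1) (hXY : TwXY u z X Y)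
    (fX : FrII p x δ X) (fY : FrII p x δ Y) : False := by
  have hu4 : u ^ 4 ≤ z := by rw [hz]; exact Nat.pow_le_pow_right (by omega) (by omega)
  have h24 : 2 ^ (2 * j + 4) ≤ z := by rw [hz]; exact Nat.pow_le_pow_left hu _
  have hz16 : 16 ≤ z := le_trans (by
    calc 16 = 2 ^ 4 := rfl
      _ ≤ u ^ 4 := Nat.pow_le_pow_left hu 4) hu4
  have hX0 : 0 < X := by rcases hXY.step with ⟨h1, h2⟩ | ⟨h1, h2⟩ <;> omega
  have hcop := hXY.cop (fun h => by rw [hz, Nat.pow_mod, h, zero_pow (by omega), Nat.zero_mod])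
  have hco : IsCoprime (X : ℤ) (Y : ℤ) := Nat.isCoprime_iff_coprime.2 hcop
  have huz : 1 ≤ u * z := Nat.mul_pos (by omega) (by omega)
  set y := |x| with hy
  have hy7 : 7 ≤ y := by
    rw [hy, le_abs]; omega
  have hyx : y ^ 2 = x ^ 2 := sq_abs x
  have hM1 : 12 * y ^ 2 ≤ 13 * (x ^ 2 + x + 1) := by
    rw [hyx]
    rcases hx with h | h <;> nlinarith
  have hM2 : 4 * y ^ 2 ≤ 13 * M := by
    rcases hδ with ⟨rfl, -⟩ | ⟨rfl, -⟩ <;> nlinarith [sq_nonneg y]
  have hM13 : 13 ≤ M := by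
    have : (13 : ℤ) ≤ M := by nlinarith
    exact_mod_cast this
  have hMz : (M : ℤ) ≤ 2 * z := by
    have h1 : u * M ≤ u * (2 * z) := by
      obtain ⟨w, rfl⟩ : ∃ w, u = w + 2 := ⟨u - 2, by omega⟩
      rw [show w + 2 - 1 = w + 1 by omega] at hle
      nlinarith
    have h2 : M ≤ 2 * z := Nat.le_of_mul_le_mul_left h1 (by omega)
    exact_mod_cast h2
  have hz16Z : (16 : ℤ) ≤ z := by exact_mod_cast hz16
  have huZ : (2 : ℤ) ≤ u := by exact_mod_cast hu
  have hleZ : ((u : ℤ) - 1) * M ≤ u * z := by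
    have h1 : (((u - 1) * M : ℕ) : ℤ) ≤ ((u * z : ℕ) : ℤ) := by exact_mod_cast hle
    rw [Nat.cast_mul, Nat.cast_sub (by omega)] at h1
    push_cast at h1
    exact h1
  have hu4Z : (u : ℤ) ^ 4 ≤ z := by exact_mod_cast hu4
  have hstep := hXY.step
  have hx0 : x ^ 2 - 1 > 0 := by rw [← hyx]; nlinarith
  have hB3 : (p : ℤ) * (x ^ 2 - 1) ∣ x ^ 3 - x := by
    have e : x ^ 3 - x = x * (x ^ 2 - 1) := by ring
    rw [e]
    exact mul_dvd_mul_right hdv _
  -- the region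
  have hreg : y < 500 ∧ (z : ℤ) - 1 ≤ (y ^ 2 + 1) * (y + 1) := by
    obtain ⟨ε, hε, hdε⟩ : ∃ ε : ℤ, (ε = 1 ∨ ε = -1) ∧ (M : ℤ) ∣ u * z - ε := by
      rcases hd with h | h
      · refine ⟨1, Or.inl rfl, ?_⟩
        have : ((u * z - 1 : ℕ) : ℤ) = (u : ℤ) * z - 1 := by push_cast [huz]; ring
        rw [← this]; exact_mod_cast h
      · refine ⟨-1, Or.inr rfl, ?_⟩
        rw [sub_neg_eq_add]
        exact_mod_cast h
    have small : ∀ N : ℕ, (N = X ∨ N = Y) → 2 * (N : ℤ) ∣ δ * (x - 1) → (z : ℤ) ≤ 3 * y + 4 := by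
      intro N hN hdN
      have hne : δ * (x - 1) ≠ 0 := by
        rcases hδ with ⟨rfl, -⟩ | ⟨rfl, -⟩ <;> omega
      have h1 := Int.le_of_dvd (abs_pos.2 hne) ((dvd_abs _ _).2 hdN)
      have h2 : |δ * (x - 1)| ≤ 3 * (y + 1) := by
        rw [abs_mul]
        have h3 : |x - 1| ≤ y + 1 := by
          have := abs_sub x 1
          simpa using this
        have h4 : |δ| ≤ 3 := by
          rcases hδ with ⟨rfl, -⟩ | ⟨rfl, -⟩ <;> norm_num
        exact mul_le_mul h4 h3 (abs_nonneg _) (by norm_num)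
      have h5 : (z : ℤ) ≤ 2 * N + 1 := by
        have : z ≤ 2 * N + 1 := by
          rcases hN with rfl | rfl <;> rcases hstep with ⟨h6, h7⟩ | ⟨h6, h7⟩ <;> omega
        exact_mod_cast this
      linarith
    have prod : (X : ℤ) * Y ≤ y ^ 3 → (z : ℤ) ^ 2 ≤ 4 * y ^ 3 + 1 := by
      intro h1
      have h3 : (z : ℤ) ^ 2 ≤ 4 * (X * Y) + 1 := by exact_mod_cast hXY.sq
      linarith
    have mixd : ∀ a b : ℕ, (a = X ∧ b = Y ∨ a = Y ∧ b = X) → 2 * (a : ℤ) ∣ (x ^ 2 + 1) * (x + 1) →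
        (b : ℤ) ∣ p * (x ^ 2 - 1) → y < 500 ∧ (z : ℤ) - 1 ≤ (y ^ 2 + 1) * (y + 1) := by
      intro a b hab hA hB
      obtain ⟨c, τ, hc, hzc, hτ⟩ : ∃ c τ : ℤ, ((c = 1 ∧ (u : ℤ) % 2 = 0) ∨ (c = 2 ∧ (u : ℤ) % 2 = 1)) ∧
          (z : ℤ) = c * a + τ ∧ (τ = 1 ∨ τ = -1) := by
        rcases hXY with ⟨h0, h1, h2⟩ | ⟨h0, h1, h2⟩
        · rcases hab with ⟨rfl, rfl⟩ | ⟨rfl, rfl⟩
          · exact ⟨1, 1, Or.inl ⟨rfl, by omega⟩, by omega, Or.inl rfl⟩
          · exact ⟨1, -1, Or.inl ⟨rfl, by omega⟩, by omega, Or.inr rfl⟩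
        · rcases hab with ⟨rfl, rfl⟩ | ⟨rfl, rfl⟩
          · exact ⟨2, 1, Or.inr ⟨rfl, by omega⟩, by omega, Or.inl rfl⟩
          · exact ⟨2, -1, Or.inr ⟨rfl, by omega⟩, by omega, Or.inr rfl⟩
      obtain ⟨h1, h2⟩ := mixII (x := x) (δ := δ) (M := M) (u := u) (c := c) (z := z) (a := a) (b := b) (s := b - a) (τ := τ)
        (ε := ε) hx hM (by omega) huZ hc hzc hz16Z hτ hε hdε (by ring) (by
          rw [abs_le]
          rcases hab with ⟨rfl, rfl⟩ | ⟨rfl, rfl⟩ <;> rcases hstep with ⟨h6, h7⟩ | ⟨h6, h7⟩ <;> constructor <;> omega)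
        (by rcases hab with ⟨rfl, rfl⟩ | ⟨rfl, rfl⟩ <;> rcases hstep with ⟨h6, h7⟩ | ⟨h6, h7⟩ <;> omega) hA
        (hB.trans hB3)
      exact ⟨regA hy7 huZ hM2 hleZ hu4Z h1 h2, h2⟩
    rcases fX with f1 | f1 | f1
    · rcases fY with f2 | f2 | f2
      · refine regB hy7 hz16Z hM2 hMz (Or.inl (prod ?_))
        have h1 : (X : ℤ) * Y ∣ (x ^ 2 + 1) * (x + 1) :=
          hco.mul_dvd ((dvd_mul_left _ _).trans f1) ((dvd_mul_left _ _).trans f2)
        have hne : (x ^ 2 + 1) * (x + 1) ≠ 0 := mul_ne_zero (by positivity) (by omega)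
        -- a factor 2 is left
        have h2 : 2 * ((X : ℤ) * Y) ∣ (x ^ 2 + 1) * (x + 1) := by
          obtain ⟨k, hk⟩ := h1
          rcases Int.even_or_odd k with ⟨l, hl⟩ | ⟨l, hl⟩
          · exact ⟨l, by rw [hk, hl]; ring⟩
          · exfalso
            -- one of `X`, `Y` is odd
            have h3 : (2 * (X : ℤ)) ∣ X * Y * k := by rw [← hk]; exact f1
            have h4 : (2 * (Y : ℤ)) ∣ X * Y * k := by rw [← hk]; exact f2
            have hX0' : (X : ℤ) ≠ 0 := by omega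
            have hY0' : (Y : ℤ) ≠ 0 := by rcases hstep with ⟨h6, h7⟩ | ⟨h6, h7⟩ <;> omega
            have h5 : (2 : ℤ) ∣ Y * k := by
              obtain ⟨r, hr⟩ := h3
              refine ⟨r, mul_left_cancel₀ hX0' ?_⟩
              linarith
            have h6 : (2 : ℤ) ∣ X * k := by
              obtain ⟨r, hr⟩ := h4
              refine ⟨r, mul_left_cancel₀ hY0' ?_⟩
              linarith
            have hk2 : ¬ (2 : ℤ) ∣ k := by omega
            have h7 : (2 : ℤ) ∣ Y := (Int.prime_two.dvd_or_dvd h5).resolve_right hk2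
            have h8 : (2 : ℤ) ∣ X := (Int.prime_two.dvd_or_dvd h6).resolve_right hk2
            have h9 := Nat.dvd_gcd (show 2 ∣ X by exact_mod_cast h8) (show 2 ∣ Y by exact_mod_cast h7)
            rw [hcop] at h9
            omega
        have h3 := Int.le_of_dvd (abs_pos.2 hne) ((dvd_abs _ _).2 h2)
        have h4 : |(x ^ 2 + 1) * (x + 1)| ≤ (y ^ 2 + 1) * (y + 1) := by
          rw [abs_mul, abs_of_nonneg (by positivity : (0 : ℤ) ≤ x ^ 2 + 1), hyx]
          have h1 : |x + 1| ≤ y + 1 := by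
            have := abs_add_le x 1
            simpa using this
          exact mul_le_mul_of_nonneg_left h1 (by positivity)
        nlinarith [mul_nonneg (sq_nonneg y) (by linarith : (0 : ℤ) ≤ y - 7)]
      · exact mixd X Y (Or.inl ⟨rfl, rfl⟩) f1 f2
      · exact regB hy7 hz16Z hM2 hMz (Or.inr (small Y (Or.inr rfl) f2))
    · rcases fY with f2 | f2 | f2
      · exact mixd Y X (Or.inr ⟨rfl, rfl⟩) f2 f1
      · refine regB hy7 hz16Z hM2 hMz (Or.inl (prod ?_))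
        have h1 : (X : ℤ) * Y ∣ p * (x ^ 2 - 1) := hco.mul_dvd f1 f2
        have hp0' : (0 : ℤ) < p := by exact_mod_cast hp0
        have h2 := Int.le_of_dvd (mul_pos hp0' hx0) h1
        have h3 : (p : ℤ) * (x ^ 2 - 1) ≤ y * (x ^ 2 - 1) := mul_le_mul_of_nonneg_right hpx hx0.le
        rw [← hyx] at h2 h3
        nlinarith
      · exact regB hy7 hz16Z hM2 hMz (Or.inr (small Y (Or.inr rfl) f2))
    · exact regB hy7 hz16Z hM2 hMz (Or.inr (small X (Or.inl rfl) f1))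
  obtain ⟨hy500, hzb⟩ := hreg
  have hzB : z ≤ 124501001 := by
    have h1 : y ≤ 499 := by omega
    have h2 : y ^ 2 + 1 ≤ 499 ^ 2 + 1 := by nlinarith
    have h3 : (y ^ 2 + 1) * (y + 1) ≤ (499 ^ 2 + 1) * 500 := mul_le_mul h2 (by omega) (by omega) (by norm_num)
    have h4 : (z : ℤ) ≤ 124501001 := by norm_num at h3; linarith
    exact_mod_cast h4
  have hu106 : u < 106 := by
    by_contra hc
    push Not at hc
    have := Nat.pow_le_pow_left hc 4
    norm_num at this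
    omega
  have hj12 : j < 12 := by
    by_contra hc
    push Not at hc
    have h1 : 2 ^ 28 ≤ 2 ^ (2 * j + 4) := Nat.pow_le_pow_right (by norm_num) (by omega)
    norm_num at h1
    omega
  have hXt : (if u % 2 = 0 then z - 1 else (z - 1) / 2) = X := by
    rcases hXY with ⟨h0, h1, h2⟩ | ⟨h0, h1, h2⟩
    · rw [if_pos h0]; omega
    · rw [if_neg (by omega)]; omega
  have hmod := mod_of_dvd (by omega) huz hd
  rcases hx with hx | hx
  · -- positive
    have hyx' : y = x := abs_of_nonneg (by omega)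
    obtain ⟨t, ht⟩ : ∃ t : ℕ, x = 4 * t + 7 := ⟨((x - 7) / 4).toNat, by omega⟩
    have hck := (chkII_spec hu hu106 hj12 (by rw [← hz]; exact hzB) (t := t) (by omega)).1
    obtain ⟨d, hdδ, hdt⟩ : ∃ d : ℕ, (d : ℤ) = δ ∧ (if (4 * t + 7) % 3 = 1 then 3 else 1) = d := by
      rcases hδ with ⟨h1, h2⟩ | ⟨h1, h2⟩
      · exact ⟨1, by rw [h1]; rfl, by rw [if_neg (by omega)]⟩
      · exact ⟨3, by rw [h1]; rfl, by rw [if_pos (by omega)]⟩
    have hd0 : 0 < d := by rcases hδ with ⟨h1, -⟩ | ⟨h1, -⟩ <;> omega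
    have hMt : ((4 * t + 7) ^ 2 + (4 * t + 7) + 1) / d = M := by
      have : ((d * M : ℕ) : ℤ) = (((4 * t + 7) ^ 2 + (4 * t + 7) + 1 : ℕ) : ℤ) := by
        push_cast; rw [hdδ, hM, ht]
      have h2 : d * M = (4 * t + 7) ^ 2 + (4 * t + 7) + 1 := by exact_mod_cast this
      rw [← h2, Nat.mul_div_cancel_left _ hd0]
    have hlx : (4 * t + 7) ≤ (4 * t + 7) ^ 3 := Nat.le_self_pow (by norm_num) _
    unfold chkP at hck
    simp only [← hz, hdt, hMt, hXt] at hck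
    rw [Bool.not_eq_true', Bool.and_eq_false_iff] at hck
    rcases hck with hck | hck
    · rw [Bool.or_eq_false_iff, beq_eq_false_iff_ne, beq_eq_false_iff_ne] at hck
      tauto
    · rw [Bool.or_eq_false_iff, Bool.or_eq_false_iff, beq_eq_false_iff_ne, beq_eq_false_iff_ne, beq_eq_false_iff_ne] at hck
      rcases fX with f | f | f
      · apply hck.1.1
        apply Nat.mod_eq_zero_of_dvd
        have h3 : ((2 * X : ℕ) : ℤ) ∣ ((((4 * t + 7) ^ 2 + 1) * ((4 * t + 7) + 1) : ℕ) : ℤ) := by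
          push_cast
          rw [ht] at f
          exact f
        exact_mod_cast h3
      · apply hck.1.2
        apply Nat.mod_eq_zero_of_dvd
        have h3 : (X : ℤ) ∣ (((4 * t + 7) ^ 3 - (4 * t + 7) : ℕ) : ℤ) := by
          rw [Nat.cast_sub hlx]
          push_cast
          rw [← ht]
          exact f.trans hB3
        exact_mod_cast h3
      · apply hck.2
        apply Nat.mod_eq_zero_of_dvd
        have h3 : ((2 * X : ℕ) : ℤ) ∣ ((d * (4 * t + 7 - 1) : ℕ) : ℤ) := by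
          rw [Nat.cast_mul d, Nat.cast_sub (by omega), hdδ]
          push_cast
          rw [ht] at f
          exact f
        exact_mod_cast h3
  · -- negative
    have hyx' : y = -x := abs_of_nonpos (by omega)
    obtain ⟨t, ht⟩ : ∃ t : ℕ, x = -(4 * t + 13) := ⟨((-x - 13) / 4).toNat, by omega⟩
    have hck := (chkII_spec hu hu106 hj12 (by rw [← hz]; exact hzB) (t := t) (by omega)).2
    obtain ⟨d, hdδ, hdt⟩ : ∃ d : ℕ, (d : ℤ) = δ ∧ (if (4 * t + 13) % 3 = 2 then 3 else 1) = d := by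
      rcases hδ with ⟨h1, h2⟩ | ⟨h1, h2⟩
      · exact ⟨1, by rw [h1]; rfl, by rw [if_neg (by omega)]⟩
      · exact ⟨3, by rw [h1]; rfl, by rw [if_pos (by omega)]⟩
    have hd0 : 0 < d := by rcases hδ with ⟨h1, -⟩ | ⟨h1, -⟩ <;> omega
    have hsq : (4 * t + 13) ≤ (4 * t + 13) ^ 2 := Nat.le_self_pow (by norm_num) _
    have hMt : ((4 * t + 13) ^ 2 - (4 * t + 13) + 1) / d = M := by
      have : ((d * M : ℕ) : ℤ) = (((4 * t + 13) ^ 2 - (4 * t + 13) + 1 : ℕ) : ℤ) := by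
        rw [Nat.cast_mul, hdδ, hM, ht]
        push_cast [Nat.cast_sub hsq]
        ring
      have h2 : d * M = (4 * t + 13) ^ 2 - (4 * t + 13) + 1 := by exact_mod_cast this
      rw [← h2, Nat.mul_div_cancel_left _ hd0]
    have hlx : (4 * t + 13) ≤ (4 * t + 13) ^ 3 := Nat.le_self_pow (by norm_num) _
    unfold chkN at hck
    simp only [← hz, hdt, hMt, hXt] at hck
    rw [Bool.not_eq_true', Bool.and_eq_false_iff] at hck
    rcases hck with hck | hck
    · rw [Bool.or_eq_false_iff, beq_eq_false_iff_ne, beq_eq_false_iff_ne] at hck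
      tauto
    · rw [Bool.or_eq_false_iff, Bool.or_eq_false_iff, beq_eq_false_iff_ne, beq_eq_false_iff_ne, beq_eq_false_iff_ne] at hck
      rcases fX with f | f | f
      · apply hck.1.1
        apply Nat.mod_eq_zero_of_dvd
        have h3 : ((2 * X : ℕ) : ℤ) ∣ ((((4 * t + 13) ^ 2 + 1) * ((4 * t + 13) - 1) : ℕ) : ℤ) := by
          rw [Nat.cast_mul ((4 * t + 13) ^ 2 + 1), Nat.cast_sub (by omega : 1 ≤ 4 * t + 13)]
          push_cast
          rw [ht] at f
          have e : (((4 * (t : ℤ) + 13) ^ 2 + 1) * (4 * t + 13 - 1)) =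
            -(((-(4 * (t : ℤ) + 13)) ^ 2 + 1) * (-(4 * (t : ℤ) + 13) + 1)) := by ring
          rw [e]
          exact (dvd_neg).2 f
        exact_mod_cast h3
      · apply hck.1.2
        apply Nat.mod_eq_zero_of_dvd
        have h3 : (X : ℤ) ∣ (((4 * t + 13) ^ 3 - (4 * t + 13) : ℕ) : ℤ) := by
          rw [Nat.cast_sub hlx]
          push_cast
          have e : (4 * (t : ℤ) + 13) ^ 3 - (4 * t + 13) = -(x ^ 3 - x) := by rw [ht]; ring
          rw [e]
          exact (dvd_neg).2 (f.trans hB3)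
        exact_mod_cast h3
      · apply hck.2
        apply Nat.mod_eq_zero_of_dvd
        have h3 : ((2 * X : ℕ) : ℤ) ∣ ((d * (4 * t + 13 + 1) : ℕ) : ℤ) := by
          rw [Nat.cast_mul d, hdδ]
          push_cast
          rw [ht] at f
          have e : δ * (4 * (t : ℤ) + 13 + 1) = -(δ * (-(4 * (t : ℤ) + 13) - 1)) := by ring
          rw [e]
          exact (dvd_neg).2 f
        exact_mod_cast h3

end Cfsg.Agent.R2.Spec.X3.PO
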