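import Mathlib
import Cfsg.Agent.H182.Classify
import Cfsg.Agent.H160.QFinal
import Cfsg.Agent.H377.Elt
import Cfsg.Agent.H432.PG.Lin
import Cfsg.Agent.S0300

/-!
# X3: the torus of order `u ^ m - 1` of `PΩ⁻_{2m}(u)`, `m` even (helper5)

`exists_res` : element orders of `PΩ(E, Q₄)` are element orders of `PΩ(F, Q)`, `Q` the trace form of `Q₄`;
`exists_sub` : `PΩ⁻_{2m}(u)` has an element of order `(u ^ m - 1) / (2, u - 1)`.
-/

set_option autoImplicit false

namespace Cfsg.Agent.R2.Spec.X3.PO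

open Cfsg QuadraticMap Module
open Cfsg.Agent.LieClassical.OrthCore Cfsg.Agent.LieClassical.OrthFinite Cfsg.Agent.LieClassical.OrthForms
open Cfsg.Agent.H182.Sign
open Cfsg.Agent.H160.QFinal

section

variable {F E : Type*} [Field F] [Field E] [Algebra F E]

/-- restriction of scalars -/
def resHom (V : Type*) [AddCommGroup V] [Module F V] [Module E V] [IsScalarTower F E V] :
    (V ≃ₗ[E] V) →* (V ≃ₗ[F] V) where
  toFun g := g.restrictScalars F
  map_one' := rfl
  map_mul' _ _ := rfl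

theorem resHom_apply {V : Type*} [AddCommGroup V] [Module F V] [Module E V] [IsScalarTower F E V] (g : V ≃ₗ[E] V) (v : V) :
    resHom (F := F) V g v = g v := rfl

variable [Finite F] [Finite E] {ι' : Type} [Fintype ι'] [DecidableEq ι'] {ι : Type} [Fintype ι] [DecidableEq ι]
  {Q₄ : QuadraticForm E (ι' → E)} {Q : QuadraticForm F (ι → F)}

/-- the homomorphism of the linear groups -/
noncomputable def psiHom (e : (ι' → E) ≃ₗ[F] (ι → F)) : ((ι' → E) ≃ₗ[E] (ι' → E)) →* ((ι → F) ≃ₗ[F] (ι → F)) :=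
  (Cfsg.Agent.H160.QSpin.cjEquiv e).toMonoidHom.comp (resHom (F := F) (ι' → E))

theorem psiHom_apply (e : (ι' → E) ≃ₗ[F] (ι → F)) (g : (ι' → E) ≃ₗ[E] (ι' → E)) (w : ι → F) :
    psiHom e g w = e (g (e.symm w)) := rfl

theorem psiHom_injective (e : (ι' → E) ≃ₗ[F] (ι → F)) : Function.Injective (psiHom e) := by
  intro g g' h
  ext1 v
  have h1 : psiHom e g (e v) = psiHom e g' (e v) := by rw [h]
  rw [psiHom_apply, psiHom_apply, e.symm_apply_apply] at h1
  exact e.injective h1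

theorem psiHom_mem (e : (ι' → E) ≃ₗ[F] (ι → F)) (he : ∀ v, Q (e v) = traceForm F Q₄ v) :
    (⁅O Q₄, O Q₄⁆).map (psiHom e) ≤ ⁅O Q, O Q⁆ := by
  have h1 : (O Q₄).map (psiHom e) ≤ O Q := by
    rintro _ ⟨g, hg, rfl⟩
    intro w
    rw [psiHom_apply, he, traceForm_apply, hg, ← traceForm_apply, ← he, e.apply_symm_apply]
  rw [Subgroup.map_commutator]
  exact Subgroup.commutator_mono h1 h1

/-- the homomorphism `Ω(E, Q₄) → Ω(F, Q)` -/
noncomputable def phiHom (e : (ι' → E) ≃ₗ[F] (ι → F)) (he : ∀ v, Q (e v) = traceForm F Q₄ v) :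
    Cfsg.Omega E ⇑Q₄ →* Cfsg.Omega F ⇑Q :=
  (omegaEquiv Q).symm.toMonoidHom.comp (((psiHom e).comp (lin Q₄)).codRestrict ⁅O Q, O Q⁆ fun y =>
    psiHom_mem e he ⟨lin Q₄ y, (omegaEquiv Q₄ y).2, rfl⟩)

theorem phiHom_injective (e : (ι' → E) ≃ₗ[F] (ι → F)) (he : ∀ v, Q (e v) = traceForm F Q₄ v) :
    Function.Injective (phiHom e he) := by
  intro y y' h
  have h1 := (omegaEquiv Q).symm.injective h
  have h2 : psiHom e (lin Q₄ y) = psiHom e (lin Q₄ y') := congrArg Subtype.val h1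
  exact lin_injective Q₄ (psiHom_injective e h2)

/-- **element orders** -/
theorem exists_res {n : ℕ} {ε : ℤ} (h₄ : Sg Q₄ n ε) (hQ : Sg Q (finrank F E * n) ε) (y : POmega E ⇑Q₄) :
    ∃ x : POmega F ⇑Q, orderOf x = orderOf y := by
  have hfin : Finite (Cfsg.isometryGroup F ⇑Q) := inferInstance
  obtain ⟨e, he⟩ := (h₄.res (F := F)).exists_equiv hQ
  obtain ⟨y, rfl⟩ := QuotientGroup.mk_surjective y
  have h1 : orderOf (QuotientGroup.mk y : POmega E ⇑Q₄) ∣ orderOf (QuotientGroup.mk (phiHom e he y) : POmega F ⇑Q) := by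
    apply orderOf_dvd_of_pow_eq_one
    have h2 := pow_orderOf_eq_one (QuotientGroup.mk (phiHom e he y) : POmega F ⇑Q)
    generalize orderOf (QuotientGroup.mk (phiHom e he y) : POmega F ⇑Q) = k at h2
    rw [← QuotientGroup.mk_pow, QuotientGroup.eq_one_iff, ← map_pow, Subgroup.mem_center_iff] at h2
    rw [← QuotientGroup.mk_pow, QuotientGroup.eq_one_iff, Subgroup.mem_center_iff]
    intro z
    apply phiHom_injective e he
    rw [map_mul, map_mul]
    exact h2 _
  obtain ⟨w, -, hw⟩ := Cfsg.Agent.H371.exists_orderOf_of_dvd (isOfFinOrder_of_finite _) h1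
  exact ⟨w, hw⟩

end

section

variable {F : Type*} [Field F] [Finite F] {ι : Type} [Fintype ι] [DecidableEq ι]
  {Q : QuadraticForm F (ι → F)} {m : ℕ}

/-- **the orders `(u ^ m ± 1) / (2, u - 1)`** -/
theorem exists_pm (hQ : Sg Q m (-1)) (hm : 4 ≤ m) (hme : m % 2 = 0) {N : ℕ}
    (hN : N ∣ (Nat.card F ^ m - 1) / H390.PslSpec.dd (Nat.card F ^ m) ∨
      N ∣ (Nat.card F ^ m + 1) / H390.PslSpec.dd (Nat.card F ^ m)) : ∃ x : POmega F ⇑Q, orderOf x = N := by
  obtain ⟨p, hp⟩ := CharP.exists F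
  have : Fact p.Prime := ⟨CharP.char_is_prime F p⟩
  obtain ⟨k, hk⟩ : ∃ k, m = k * 2 := ⟨m / 2, by omega⟩
  have : NeZero k := ⟨by omega⟩
  have : NeZero m := ⟨by omega⟩
  let E := FiniteField.Extension F p k
  let K := FiniteField.Extension F p m
  have hE : Nat.card E = Nat.card F ^ k := FiniteField.natCard_extension ..
  have hK : Nat.card K = Nat.card F ^ m := FiniteField.natCard_extension ..
  let _ : Fintype E := Fintype.ofFinite E
  let _ : Fintype K := Fintype.ofFinite K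
  obtain ⟨a, b, hab⟩ := Cfsg.Agent.H377.exists_aniso E
  obtain ⟨f⟩ := Cfsg.Agent.S0300.result (F := E) (K := K) (q := Nat.card E) (Nat.card_eq_fintype_card).symm
    (by rw [← Nat.card_eq_fintype_card, hK, hE, hk, pow_mul]) a b hab
  rw [← coe_minusForm] at f
  have hcK : Fintype.card K = Nat.card F ^ m := by rw [← Nat.card_eq_fintype_card, hK]
  have hF2 : 2 ≤ Nat.card F := Finite.one_lt_card
  obtain ⟨s, hs⟩ := CharP.exists K
  have : Fact s.Prime := ⟨CharP.char_is_prime K s⟩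
  obtain ⟨g, hg⟩ := (Cfsg.Agent.H432.PG.psl_orders (F := K) s (by
    rw [hcK]
    calc 4 ≤ 2 ^ 4 := by norm_num
      _ ≤ Nat.card F ^ 4 := Nat.pow_le_pow_left hF2 4
      _ ≤ _ := Nat.pow_le_pow_right (by omega) hm) N).2 (by rw [hcK]; exact Or.inr hN)
  have hs4 : Sg (minusForm 1 E a b) 2 (-1) := sg_minusForm 1 hab
  have hm' : finrank F E * 2 = m := by
    rw [show finrank F E = k from FiniteField.finrank_extension .., ← hk]
  have hQ' : Sg Q (finrank F E * 2) (-1) := by rw [hm']; exact hQ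
  obtain ⟨x, hx⟩ := exists_res hs4 hQ' (f.symm g)
  refine ⟨x, ?_⟩
  rw [hx, ← hg]
  exact orderOf_injective f.symm.toMonoidHom f.symm.injective g

end

end Cfsg.Agent.R2.Spec.X3.PO
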