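import Cfsg.Agent.R2.Spec.X3.PO.Sp
import Cfsg.Agent.R2.Spec.X3.PO.Tn
import Cfsg.Agent.R2.Spec.X3.PO.NumIII
import Cfsg.Agent.H84.UF.Orth

/-!
# X3, the rows `PΩ^±_{2m}(u)`, `4 ≤ m` (helper5)

`row_orth`, `row_plus`, `row_minus`: no `Cand p x M S` for `S = PΩ^±_{2m}(u)`, `p` prime to `u`.
-/

set_option autoImplicit false

namespace Cfsg.Agent.R2.Spec.X3.PO

open Cfsg Cfsg.Agent.H182.Sign Cfsg.Agent.H182.Cent Cfsg.Agent.LieClassical.OrthForms
open Cfsg.Agent.H84.UF.OrthCore (dvd_of_int_sub dvd_gcd_sub sq_sub_one pow_two_mul_sub)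

section

variable {p M : ℕ} {x : ℤ} {S : Type*} [Group S] (h : Cand p x M S)

include h

theorem Cand_pos : 0 < p := h.hp.pos

/-- the free orders, type I -/
theorem frI {N : ℕ} (he : ∃ g : S, orderOf g = N) (hN : Nat.Coprime N M) (hx : x % 4 = 1) : FrI p x N := by
  rcases h.freeI he hN hx with h1 | h1 | h1 | h1
  · exact Or.inl h1
  · exact Or.inr (h1.mul_left _)
  · exact Or.inr ((dvd_mul_left _ _).trans h1)
  · exact Or.inr (h1.trans ⟨x + 1, by ring⟩)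

/-- the free orders, type II -/
theorem frII {N : ℕ} (he : ∃ g : S, orderOf g = N) (hN : Nat.Coprime N M) {δ : ℤ} (hty : TII x M δ) : FrII p x δ N := by
  rcases h.freeII he hN hty with h1 | h1 | h1 | h1 | h1
  · exact Or.inl h1
  · exact Or.inr (Or.inl (h1.mul_left _))
  · exact Or.inr (Or.inl ((dvd_mul_left _ _).trans h1))
  · exact Or.inr (Or.inl (h1.trans ⟨x + 1, by ring⟩))
  · exact Or.inr (Or.inr h1)

/-- **the numerics** -/
theorem num_odd {X Y u j z : ℕ} (hu : 2 ≤ u) (hz : z = u ^ (2 * j + 4)) (hle : (u - 1) * M ≤ u * z)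
    (hd : M ∣ u * z - 1 ∨ M ∣ u * z + 1) (hXY : TwXY u z X Y) (hX : ∃ g : S, orderOf g = X) (hY : ∃ g : S, orderOf g = Y)
    (cX : Nat.Coprime X M) (cY : Nat.Coprime Y M) : False := by
  rcases h.typ with ⟨h1, h2, h3⟩ | ⟨δ, hty⟩
  · refine numI h.hp.pos ?_ h.p_dvd h2 h1 h3 hu hz hle hd hXY (frI h hX cX h1) (frI h hY cY h1)
    have := h.p_le
    rwa [abs_of_nonneg (by omega)] at this
  · have hf1 := frII h hX cX hty
    have hf2 := frII h hY cY hty
    obtain ⟨h1, h2, h3, h4⟩ := hty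
    exact numII h.hp.pos h.p_le h.p_dvd h1 h2 h3 h4 hu hz hle hd hXY hf1 hf2

theorem core [Finite S] {v f u m X Y : ℕ} {ε₀ : ℤ} (hv : v.Prime) (hvp : v ≠ p) (hf : 1 ≤ f) (huv : u = v ^ f)
    (hvS : v ∣ Nat.card S) (hm : 4 ≤ m) (hε : ε₀ = 1 ∨ ε₀ = -1)
    (hX : ∃ g : S, orderOf g = X) (hY : ∃ g : S, orderOf g = Y) (hXY : TwXY u (u ^ (m - 1)) X Y)
    (hrj : ∀ r : ℕ, r.Prime → r ∣ M → ∀ j : ℕ, 1 ≤ j → j + 2 ≤ m → ¬ r ∣ u ^ (2 * j) - 1)
    (hTN : ε₀ = -1 → m % 2 = 0 → ∃ A B c : ℕ, ((c = 1 ∧ Even (u ^ m)) ∨ (c = 2 ∧ Odd (u ^ m))) ∧ c * A = u ^ m - 1 ∧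
      c * B = u ^ m + 1 ∧ (∃ g : S, orderOf g = A) ∧ ∃ g : S, orderOf g = B)
    (hstr : (∃ ε : ℤ, (ε = 1 ∨ ε = -1) ∧ (M : ℤ) ∣ ε * (u : ℤ) ^ (m - 1) - 1) ∨
      (M : ℤ) ∣ ε₀ * (u : ℤ) ^ m - 1) : False := by
  have hu : 2 ≤ u := by rw [huv]; exact Nat.one_lt_pow (by omega) hv.one_lt
  have hone : ∀ i, 1 ≤ u ^ i := fun i => Nat.one_le_pow _ _ (by omega)
  have hMo := h.M_odd
  have hM13 := h.M_ge
  have hM2 : Nat.Coprime M 2 := Nat.coprime_two_right.2 (Nat.odd_iff.2 hMo)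
  have hnr2 : ∀ r : ℕ, r.Prime → r ∣ M → ¬ r ∣ 2 := by
    intro r hr hrM hr2
    have h1 := Nat.dvd_gcd hrM hr2
    rw [hM2] at h1
    exact hr.one_lt.ne' (Nat.dvd_one.1 h1)
  set z := u ^ (m - 1) with hz
  have hz1 : 1 ≤ z := hone _
  have hXd : X ∣ z - 1 := by
    rcases hXY with ⟨-, h1, -⟩ | ⟨-, h1, -⟩
    · exact ⟨1, by omega⟩
    · exact ⟨2, by omega⟩
  have hYd : Y ∣ z + 1 := by
    rcases hXY with ⟨-, -, h1⟩ | ⟨-, -, h1⟩
    · exact ⟨1, by omega⟩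
    · exact ⟨2, by omega⟩
  have hMX : M ∣ z - 1 → M ∣ X := by
    intro hd
    rcases hXY with ⟨-, h1, -⟩ | ⟨-, h1, -⟩
    · rwa [show z - 1 = X by omega] at hd
    · rw [show z - 1 = 2 * X by omega] at hd
      exact hM2.dvd_of_dvd_mul_left hd
  have hMY : M ∣ z + 1 → M ∣ Y := by
    intro hd
    rcases hXY with ⟨-, -, h1⟩ | ⟨-, -, h1⟩
    · rwa [← h1] at hd
    · rw [← h1] at hd
      exact hM2.dvd_of_dvd_mul_left hd
  have cop_of : ∀ {N : ℕ}, (∀ r : ℕ, r.Prime → r ∣ M → ¬ r ∣ N) → Nat.Coprime N M := fun hh =>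
    Nat.coprime_of_dvd fun k hk hkN hkM => hh k hk hkM hkN
  have hno2 : ∀ N : ℕ, 1 ≤ N → ∀ r : ℕ, r.Prime → r ∣ M → r ∣ N - 1 → ¬ r ∣ N + 1 := by
    intro N hN r hr hrM h1 h2
    have h3 : N + 1 = (N - 1) + 2 := by omega
    rw [h3] at h2
    exact hnr2 r hr hrM ((Nat.dvd_add_right h1).1 h2)
  have hev : ∀ i, 1 ≤ i → u % 2 = 0 → (u ^ i) % 2 = 0 := fun i hi h0 => by
    rw [Nat.pow_mod, h0, zero_pow (by omega), Nat.zero_mod]
  have hod : ∀ i, u % 2 = 1 → (u ^ i) % 2 = 1 := fun i h0 => by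
    rw [Nat.pow_mod, h0, one_pow, Nat.one_mod]
  rcases hstr with ⟨ε, hε', hd⟩ | hd
  · have hd' : (M : ℤ) ∣ ε * ((z : ℕ) : ℤ) - 1 := by rw [hz]; push_cast; exact hd
    -- `X`, `Y` are the twins
    obtain ⟨c, hc, hcX, hcY⟩ : ∃ c : ℕ, ((c = 1 ∧ Even z) ∨ (c = 2 ∧ Odd z)) ∧ c * X = z - 1 ∧ c * Y = z + 1 := by
      rcases hXY with ⟨h0, h1, h2⟩ | ⟨h0, h1, h2⟩
      · exact ⟨1, Or.inl ⟨rfl, Nat.even_iff.2 (hev _ (by omega) h0)⟩, by omega, by omega⟩
      · exact ⟨2, Or.inr ⟨rfl, Nat.odd_iff.2 (hod _ h0)⟩, by omega, by omega⟩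
    refine h.no_twin hv hvp (m := f * (m - 1)) (z := z) (c := c) (Nat.mul_pos (by omega) (by omega))
      (by rw [hz, huv, ← pow_mul]) hvS hc hcX hcY hX hY ?_
    rcases dvd_of_int_sub hz1 hε' hd' with ⟨-, h1⟩ | ⟨-, h1⟩
    · exact Or.inl ⟨hMX h1, cop_of fun r hr hrM hrN => hno2 z hz1 r hr hrM (hrM.trans h1) (hrN.trans hYd)⟩
    · exact Or.inr ⟨hMY h1, cop_of fun r hr hrM hrN => hno2 z hz1 r hr hrM (hrN.trans hXd) (hrM.trans h1)⟩
  · have hd' : (M : ℤ) ∣ ε₀ * ((u ^ m : ℕ) : ℤ) - 1 := by push_cast; exact hd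
    have hcase := dvd_of_int_sub (hone m) hε hd'
    rcases Nat.mod_two_eq_zero_or_one m with hme | hmo
    · obtain ⟨k, hk⟩ : ∃ k, m = 2 * k := ⟨m / 2, by omega⟩
      rcases hcase with ⟨rfl, h1⟩ | ⟨rfl, h1⟩
      · -- `ε₀ = 1`, `m` even
        obtain ⟨r, hr, hrM⟩ := h.exists_prime
        refine hrj r hr hrM k (by omega) (by omega) ?_
        rw [← hk]
        exact hrM.trans h1
      · obtain ⟨A, B, c, hc, hcA, hcB, eA, eB⟩ := hTN rfl hme
        refine h.no_twin hv hvp (m := f * m) (z := u ^ m) (c := c) (Nat.mul_pos (by omega) (by omega))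
          (by rw [huv, ← pow_mul]) hvS hc hcA hcB eA eB (Or.inr ⟨?_, ?_⟩)
        · rcases hc with ⟨rfl, -⟩ | ⟨rfl, -⟩
          · rw [one_mul] at hcB; rwa [hcB]
          · rw [← hcB] at h1
            exact hM2.dvd_of_dvd_mul_left h1
        · exact cop_of fun r hr hrM hrN => hno2 (u ^ m) (hone m) r hr hrM (by
            rw [← hcA]; exact hrN.mul_left c) (hrM.trans h1)
    · -- `m` odd
      -- `M ∣ u ^ (2 m) - 1`
      have hM2m : M ∣ u ^ (2 * m) - 1 := by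
        rw [pow_two_mul_sub]
        rcases hcase with ⟨-, h1⟩ | ⟨-, h1⟩
        · exact h1.mul_left _
        · exact h1.mul_right _
      have hnz : ∀ r : ℕ, r.Prime → r ∣ M → ¬ r ∣ u ^ (2 * (m - 1)) - 1 := by
        intro r hr hrM h1
        have h2 := dvd_gcd_sub (hrM.trans hM2m) h1
        have h3 : Nat.gcd (2 * m) (2 * (m - 1)) = 2 := by
          rw [Nat.gcd_mul_left]
          have h4 : Nat.gcd m (m - 1) = 1 := by
            have : Nat.gcd (m - 1 + 1) (m - 1) = 1 := by simp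
            rwa [Nat.sub_add_cancel (by omega)] at this
          rw [h4]
        rw [h3] at h2
        exact hrj r hr hrM 1 le_rfl (by omega) (by simpa using h2)
      have hfac : u ^ (2 * (m - 1)) - 1 = (z + 1) * (z - 1) := pow_two_mul_sub _ _
      have cX : Nat.Coprime X M := cop_of fun r hr hrM hrN =>
        hnz r hr hrM (by rw [hfac]; exact (hrN.trans hXd).mul_left _)
      have cY : Nat.Coprime Y M := cop_of fun r hr hrM hrN =>
        hnz r hr hrM (by rw [hfac]; exact (hrN.trans hYd).mul_right _)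
      have hpz : u ^ m = u * z := by
        rw [hz, mul_comm, ← pow_succ]
        congr 1
        omega
      have hnu : ∀ r : ℕ, r.Prime → r ∣ M → ¬ r ∣ u ^ 2 - 1 := fun r hr hrM h1 =>
        hrj r hr hrM 1 le_rfl (by omega) (by simpa using h1)
      have hineq : (u - 1) * M ≤ u * z := by
        rw [← hpz]
        rcases hcase with ⟨-, h1⟩ | ⟨-, h1⟩
        · obtain ⟨W, hW⟩ := Nat.sub_one_dvd_pow_sub_one u m
          have h3 : Nat.Coprime M (u - 1) := (cop_of fun r hr hrM hrN =>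
            hnu r hr hrM (by rw [sq_sub_one]; exact hrN.mul_left _)).symm
          rw [hW] at h1
          have h4 := h3.dvd_of_dvd_mul_left h1
          have hW0 : W ≠ 0 := by
            rintro rfl
            have h5 : 2 ^ 1 ≤ u ^ m := (Nat.pow_le_pow_left hu 1).trans (Nat.pow_le_pow_right (by omega) (by omega))
            omega
          have h5 := Nat.le_of_dvd (Nat.pos_of_ne_zero hW0) h4
          calc (u - 1) * M ≤ (u - 1) * W := Nat.mul_le_mul_left _ h5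
            _ = u ^ m - 1 := hW.symm
            _ ≤ u ^ m := by omega
        · have h2 : u + 1 ∣ u ^ m + 1 := by
            have h3 := Odd.nat_add_dvd_pow_add_pow u 1 (Nat.odd_iff.2 hmo)
            rwa [one_pow] at h3
          obtain ⟨W, hW⟩ := h2
          have h3 : Nat.Coprime M (u + 1) := (cop_of fun r hr hrM hrN =>
            hnu r hr hrM (by rw [sq_sub_one]; exact hrN.mul_right _)).symm
          rw [hW] at h1
          have h4 := h3.dvd_of_dvd_mul_left h1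
          have hW0 : W ≠ 0 := by
            rintro rfl
            omega
          have h5 := Nat.le_of_dvd (Nat.pos_of_ne_zero hW0) h4
          have h6 : (u + 1) * M ≤ (u + 1) * W := Nat.mul_le_mul_left _ h5
          have h7 : (u + 1) * M = (u - 1) * M + 2 * M := by
            rw [← add_mul]
            congr 1
            omega
          omega
      obtain ⟨j, hj⟩ : ∃ j, m - 1 = 2 * j + 4 := ⟨(m - 5) / 2, by omega⟩
      refine num_odd h hu (j := j) (z := z) (by rw [hz, hj]) hineq ?_ hXY hX hY cX cY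
      rw [← hpz]
      rcases hcase with ⟨-, h1⟩ | ⟨-, h1⟩
      · exact Or.inl h1
      · exact Or.inr h1

end

/-- **The rows `PΩ^±_{2m}(u)`, `4 ≤ m`.** -/
theorem row_orth {F : Type*} [Field F] [Fintype F] {ι : Type} [Fintype ι] [DecidableEq ι]
    {Q : QuadraticForm F (ι → F)} {m : ℕ} {ε₀ : ℤ} (hQ : Sg Q m ε₀) (hm : 4 ≤ m) {p M : ℕ} {x : ℤ} (hpF : (p : F) ≠ 0)
    (h : Cand p x M (Cfsg.POmega F ⇑Q)) : False := by
  have hfin : Finite (Cfsg.isometryGroup F ⇑Q) := inferInstance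
  have hM := h.M_ge
  have hMo : Odd M := Nat.odd_iff.2 h.M_odd
  have hna : ∀ r : ℕ, r.Prime → r ∣ M → ¬ H94.PG.Adj (POmega F ⇑Q) r 2 := fun r hr hrM => h.not_adj hr hrM
  have hu : 1 < Nat.card F := Finite.one_lt_card
  obtain ⟨X, Y, hX, hY, hXY⟩ := Cfsg.Agent.H84.UF.exists_XY hQ hm
  obtain ⟨y, hy⟩ := h.elt
  obtain ⟨v, hv⟩ := CharP.exists F
  obtain ⟨f, hvp, hf⟩ := FiniteField.card F v
  have hcF : Nat.card F = v ^ (f : ℕ) := by rw [Nat.card_eq_fintype_card, hf]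
  have hvne : v ≠ p := by
    rintro rfl
    exact hpF (CharP.cast_eq_zero F v)
  have hvS : v ∣ Nat.card (POmega F ⇑Q) := char_dvd hvp f.pos hcF
    (fun h3 => adj_two_of_char hQ hm hvp h3 (CharP.cast_eq_zero F v))
    (fun r hr hr2 hd => adj_two_of_dvd hQ hm le_rfl (by omega) hr hr2 (by rwa [mul_one]))
  refine core (u := Nat.card F) (ε₀ := ε₀) h hvp hvne f.pos hcF hvS hm hQ.eps hX hY hXY ?_ ?_ ?_
  · intro r hr hrM j hj hjm hd
    exact hna r hr hrM (adj_two_of_dvd hQ hm hj hjm hr (h.prime_facts hr hrM).1 hd)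
  · rintro rfl hme
    rcases Nat.even_or_odd (Nat.card F) with he | ho
    · have hev : Even (Nat.card F ^ m) := Nat.even_pow.2 ⟨he, by omega⟩
      have hd1 : H390.PslSpec.dd (Nat.card F ^ m) = 1 := H390.PslSpec.dd_even hev (Nat.one_le_pow _ _ (by omega))
      refine ⟨_, _, 1, Or.inl ⟨rfl, hev⟩, one_mul _, one_mul _, exists_pm hQ hm hme (Or.inl ?_),
        exists_pm hQ hm hme (Or.inr ?_)⟩
      · rw [hd1, Nat.div_one]
      · rw [hd1, Nat.div_one]
    · have hod : Odd (Nat.card F ^ m) := ho.pow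
      have hd2 : H390.PslSpec.dd (Nat.card F ^ m) = 2 := H390.PslSpec.dd_odd hod
      obtain ⟨k, hk⟩ := hod
      refine ⟨k, k + 1, 2, Or.inr ⟨rfl, ⟨k, hk⟩⟩, by omega, by omega, exists_pm hQ hm hme (Or.inl ?_),
        exists_pm hQ hm hme (Or.inr ?_)⟩
      · rw [hd2, hk]
        exact dvd_of_eq (by omega)
      · rw [hd2, hk]
        exact dvd_of_eq (by omega)
  · exact Cfsg.Agent.H84.UF.OrthStr.struct hQ hm hMo (by omega) hy hna

/-- **The rows `PΩ⁺_{2m}(u)`.** -/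
theorem row_plus {F : Type*} [Field F] [Fintype F] {m : ℕ} (hm : 4 ≤ m) {p M : ℕ} {x : ℤ} (hpF : (p : F) ≠ 0)
    (h : Cand p x M (Cfsg.POmega F (Cfsg.quadFormPlus m F))) : False := by
  rw [← coe_plusForm] at h
  exact row_orth (sg_plusForm (F := F) m) hm hpF h

/-- **The rows `PΩ⁻_{2m}(u)`.** -/
theorem row_minus {F : Type*} [Field F] [Fintype F] {m : ℕ} {a b : F} (hm : 4 ≤ m)
    (hab : ∀ z₁ z₂ : F, z₁ ^ 2 + a * z₁ * z₂ + b * z₂ ^ 2 = 0 → z₁ = 0 ∧ z₂ = 0) {p M : ℕ} {x : ℤ} (hpF : (p : F) ≠ 0)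
    (h : Cand p x M (Cfsg.POmega F (Cfsg.quadFormMinus (m - 1) F a b))) : False := by
  have hs := sg_minusForm (F := F) (m - 1) hab
  rw [Nat.sub_add_cancel (by omega)] at hs
  rw [← coe_minusForm] at h
  exact row_orth hs hm hpF h

end Cfsg.Agent.R2.Spec.X3.PO
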