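import Cfsg.Agent.R2.Spec.X3.Pair
import Cfsg.Agent.H219.UF.Sp

/-!
# X3, rows `PSp_{2m}(u)`, `Ω_{2m+1}(u)` (helper5)

`row_psp`, `row_omegaOdd`: no `Cand p x M S` for `S = PSp m F`, `POmega F (quadFormOdd m F)`, `p` prime to `|F|`.
-/

set_option autoImplicit false

namespace Cfsg.Agent.R2.Spec.X3.PO

open Cfsg Cfsg.Agent.H377
open Cfsg.Agent.H360.Iso (dvd_of_primes not_dvd_prod dvd_of_odd_two_mul)

/-- the characteristic divides the order -/
theorem char_dvd {T : Type*} [Group T] [Finite T] {v f Q : ℕ} (hv : v.Prime) (hf : 1 ≤ f) (hQv : Q = v ^ f)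
    (h2 : v ≠ 2 → H94.PG.Adj T v 2)
    (hadj : ∀ u : ℕ, u.Prime → u ≠ 2 → u ∣ Q ^ 2 - 1 → H94.PG.Adj T u 2) : v ∣ Nat.card T := by
  by_cases hv2 : v = 2
  · subst hv2
    have hQ2 : 2 ∣ Q := by rw [hQv]; exact dvd_pow_self 2 (by omega)
    have hQ0 : 0 < Q := by rw [hQv]; positivity
    have h3 : 2 ≤ Q := Nat.le_of_dvd hQ0 hQ2
    have h4 : 4 ≤ Q ^ 2 := by nlinarith
    have h5 : (Q ^ 2) % 2 = 0 := by
      rw [Nat.pow_mod, Nat.mod_eq_zero_of_dvd hQ2]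
    have h6 : (Q ^ 2 - 1) ≠ 1 := by omega
    have h7 := Nat.minFac_prime h6
    have h8 := Nat.minFac_dvd (Q ^ 2 - 1)
    obtain ⟨-, -, -, a, b, ha, hb, -⟩ := hadj _ h7 (by
      intro h9
      rw [h9] at h8
      omega) h8
    exact hb ▸ orderOf_dvd_natCard b
  · obtain ⟨-, -, -, a, b, ha, hb, -⟩ := h2 hv2
    exact ha ▸ orderOf_dvd_natCard a

/-- the abstract argument for both families -/
theorem twin_of {T : Type*} [Group T] [Finite T] {p M v f Q m A B c : ℕ} {x : ℤ} (h : Cand p x M T) (hv : v.Prime)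
    (hvp : v ≠ p) (hf : 1 ≤ f) (hQv : Q = v ^ f) (hm : 2 ≤ m)
    (hc : (c = 1 ∧ Even Q) ∨ (c = 2 ∧ Odd Q)) (hA : c * A = Q ^ m - 1) (hB : c * B = Q ^ m + 1)
    (eA : ∃ x : T, orderOf x = A) (eB : ∃ x : T, orderOf x = B)
    (hcard : Nat.card T ∣ Q ^ (m ^ 2) * ∏ i ∈ Finset.range m, (Q ^ (2 * (i + 1)) - 1))
    (h2 : ∀ u : ℕ, u.Prime → u ≠ 2 → u ∣ Q → H94.PG.Adj T u 2)
    (hadj : ∀ u i : ℕ, u.Prime → u ≠ 2 → 1 ≤ i → i < m → u ∣ Q ^ (2 * i) - 1 → H94.PG.Adj T u 2)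
    (hboth : c = 1 → ∀ r s : ℕ, r.Prime → s.Prime → r ≠ 2 → s ≠ 2 → r ≠ s → r ∣ Q ^ m - 1 → s ∣ Q ^ m + 1 →
      (∀ i, 1 ≤ i → i < m → ¬ r ∣ Q ^ (2 * i) - 1) → (∀ i, 1 ≤ i → i < m → ¬ s ∣ Q ^ (2 * i) - 1) →
      ¬ ∃ x : T, orderOf x = r * s) : False := by
  have hQ : 1 < Q := by rw [hQv]; exact Nat.one_lt_pow (by omega) hv.one_lt
  have hvT : v ∣ Nat.card T := char_dvd hv hf hQv
    (fun h3 => h2 v hv h3 (by rw [hQv]; exact dvd_pow_self v (by omega)))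
    (fun u hu hu2 hd => hadj u 1 hu hu2 le_rfl (by omega) (by rwa [mul_one]))
  have hpos : 1 ≤ Q ^ m := Nat.one_le_pow _ _ (by omega)
  have hQm : Q ≤ Q ^ m := Nat.le_self_pow (by omega) _
  have hodd : M % 2 = 1 := h.M_odd
  have hne2 : ∀ r : ℕ, r.Prime → r ∣ M → r ≠ 2 := by
    rintro r hr hrM rfl
    omega
  have hna : ∀ r i : ℕ, r.Prime → r ∣ M → 1 ≤ i → i < m → ¬ r ∣ Q ^ (2 * i) - 1 := fun r i hr hrM hi him hd =>
    h.not_adj hr hrM (hadj r i hr (hne2 r hr hrM) hi him hd)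
  obtain ⟨y, hy⟩ := h.elt
  -- `M ∣ (Q^m-1)(Q^m+1)`
  have hn0 : M ∣ (Q ^ m - 1) * (Q ^ m + 1) := by
    have h1 : M ∣ Q ^ (m ^ 2) * ∏ i ∈ Finset.range m, (Q ^ (2 * (i + 1)) - 1) :=
      (hy ▸ orderOf_dvd_natCard y).trans hcard
    obtain ⟨k, rfl⟩ : ∃ k, m = k + 1 := ⟨m - 1, by omega⟩
    rw [Finset.prod_range_succ] at h1
    have h3 : M ∣ (∏ i ∈ Finset.range k, (Q ^ (2 * (i + 1)) - 1)) * (Q ^ (2 * (k + 1)) - 1) :=
      dvd_of_primes h1 fun r hr hrn hd => h.not_adj hr hrn (h2 r hr (hne2 r hr hrn) (hr.dvd_of_dvd_pow hd))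
    have h4 : M ∣ Q ^ (2 * (k + 1)) - 1 := dvd_of_primes h3 fun r hr hrn =>
      not_dvd_prod (fun i hi hd => by
        rw [Finset.mem_range] at hi
        exact hna r (i + 1) hr hrn (by omega) (by omega) hd) hr
    have h5 : Q ^ (2 * (k + 1)) - 1 = (Q ^ (k + 1) - 1) * (Q ^ (k + 1) + 1) := by
      rw [mul_comm 2, pow_mul, mul_comm, ← Nat.sq_sub_sq, one_pow]
    rwa [h5] at h4
  have hrc : ∀ r C : ℕ, r.Prime → r ∣ M → r ∣ c * C → r ∣ C := by
    intro r C hr hrM hd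
    rcases (Nat.Prime.dvd_mul hr).1 hd with h3 | h3
    · exfalso
      rcases hc with ⟨rfl, -⟩ | ⟨rfl, -⟩
      · exact hr.one_lt.ne' (Nat.dvd_one.1 h3)
      · exact hne2 r hr hrM ((Nat.prime_dvd_prime_iff_eq hr Nat.prime_two).1 h3)
    · exact h3
  have hco : ∀ {C : ℕ}, M ∣ c * C → M ∣ C := by
    intro C hC
    rcases hc with ⟨rfl, -⟩ | ⟨rfl, -⟩
    · rwa [one_mul] at hC
    · exact dvd_of_odd_two_mul hC (Nat.odd_iff.2 hodd)
  have hcz : (c = 1 ∧ Even (Q ^ m)) ∨ (c = 2 ∧ Odd (Q ^ m)) := by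
    rcases hc with ⟨h1, h3⟩ | ⟨h1, h3⟩
    · exact Or.inl ⟨h1, Nat.even_pow.2 ⟨h3, by omega⟩⟩
    · exact Or.inr ⟨h1, h3.pow⟩
  have htw : (M ∣ A ∧ Nat.Coprime B M) ∨ (M ∣ B ∧ Nat.Coprime A M) → False := fun hh =>
    h.no_twin hv hvp (m := f * m) (z := Q ^ m) (c := c) (Nat.mul_pos (by omega) (by omega))
      (by rw [hQv, ← pow_mul]) hvT hcz hA hB eA eB hh
  by_cases hA' : ∃ r : ℕ, r.Prime ∧ r ∣ M ∧ r ∣ Q ^ m - 1
  · obtain ⟨r, hr, hrM, hrA⟩ := hA'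
    by_cases hB' : ∃ s : ℕ, s.Prime ∧ s ∣ M ∧ s ∣ Q ^ m + 1
    · obtain ⟨s, hs, hsM, hsB⟩ := hB'
      rcases hc with ⟨rfl, he⟩ | ⟨rfl, ho⟩
      · have hrs : r ≠ s := by
          rintro rfl
          have h3 : r ∣ 2 := by
            have h4 := (Nat.dvd_sub hsB hrA)
            have h5 : Q ^ m + 1 - (Q ^ m - 1) = 2 := by omega
            rwa [h5] at h4
          exact hne2 r hr hrM ((Nat.prime_dvd_prime_iff_eq hr Nat.prime_two).1 h3)
        refine hboth rfl r s hr hs (hne2 r hr hrM) (hne2 s hs hsM) hrs hrA hsB (fun i => hna r i hr hrM)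
          (fun i => hna s i hs hsM) ?_
        have h6 : r * s ∣ orderOf y := by
          rw [hy]
          exact Nat.Coprime.mul_dvd_of_dvd_of_dvd ((Nat.coprime_primes hr hs).2 hrs) hrM hsM
        obtain ⟨w, -, hw⟩ := Cfsg.Agent.H371.exists_orderOf_of_dvd (isOfFinOrder_of_finite y) h6
        exact ⟨w, hw⟩
      · have h6 := h.odd_of_dvd eA hr hrM (hrc r A hr hrM (by rw [hA]; exact hrA))
        have h7 := h.odd_of_dvd eB hs hsM (hrc s B hs hsM (by rw [hB]; exact hsB))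
        omega
    · push Not at hB'
      have h3 : M ∣ Q ^ m - 1 := by
        rw [mul_comm] at hn0
        exact dvd_of_primes hn0 hB'
      have h4 : M ∣ A := hco (by rw [hA]; exact h3)
      have h5 : Nat.Coprime B M := Nat.coprime_of_dvd fun k hk hkB hkM =>
        hB' k hk hkM (by rw [← hB]; exact hkB.mul_left c)
      exact htw (Or.inl ⟨h4, h5⟩)
  · push Not at hA'
    have h3 : M ∣ Q ^ m + 1 := dvd_of_primes hn0 hA'
    have h4 : M ∣ B := hco (by rw [hB]; exact h3)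
    have h5 : Nat.Coprime A M := Nat.coprime_of_dvd fun k hk hkB hkM =>
      hA' k hk hkM (by rw [← hA]; exact hkB.mul_left c)
    exact htw (Or.inr ⟨h4, h5⟩)

section

variable {F : Type*} [Field F] [Fintype F]

/-- the characteristic -/
theorem exists_char {p : ℕ} (hpF : (p : F) ≠ 0) : ∃ v f : ℕ, v.Prime ∧ v ≠ p ∧ 1 ≤ f ∧ Nat.card F = v ^ f := by
  obtain ⟨v, hv⟩ := CharP.exists F
  obtain ⟨k, hvp, hk⟩ := FiniteField.card F v
  refine ⟨v, k, hvp, ?_, k.pos, by rw [Nat.card_eq_fintype_card, hk]⟩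
  rintro rfl
  exact hpF (CharP.cast_eq_zero F v)

/-- **`PSp_{2m}(u)`** -/
theorem row_psp {m : ℕ} (hm : 2 ≤ m) {p M : ℕ} {x : ℤ} (hpF : (p : F) ≠ 0) (h : Cand p x M (Cfsg.PSp m F)) : False := by
  classical
  have hq : 1 < Nat.card F := Finite.one_lt_card
  have hfin : Finite (PSp m F) := inferInstance
  obtain ⟨v, f, hv, hvp, hf, hQv⟩ := exists_char hpF
  have hcard : Nat.card (PSp m F) ∣ Nat.card F ^ (m ^ 2) *
      ∏ i ∈ Finset.range m, (Nat.card F ^ (2 * (i + 1)) - 1) := by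
    have h1 : Nat.card (PSp m F) ∣ Nat.card (Matrix.symplecticGroup (Fin m) F) := Subgroup.card_quotient_dvd_card _
    rwa [Cfsg.Agent.S0245.result (F := F) rfl m, ← Nat.card_eq_fintype_card] at h1
  have hadj : ∀ u i : ℕ, u.Prime → u ≠ 2 → 1 ≤ i → i < m → u ∣ Nat.card F ^ (2 * i) - 1 →
      H94.PG.Adj (PSp m F) u 2 := fun u i hu hu2 hi him hd => psp_adj_two_of_dvd hi him hu hu2 hd
  have hchar : ∀ u : ℕ, u.Prime → u ≠ 2 → u ∣ Nat.card F → H94.PG.Adj (PSp m F) u 2 :=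
    fun u hu hu2 hd => psp_adj_two_of_char hm hu hu2 hd
  have hpow : 2 ≤ Nat.card F ^ m := le_trans (by omega) (Nat.le_self_pow (by omega) _)
  rcases Nat.even_or_odd (Nat.card F) with he | ho
  · have hev : Even (Nat.card F ^ m) := Nat.even_pow.2 ⟨he, by omega⟩
    have oA : Odd (Nat.card F ^ m - 1) := by
      obtain ⟨k, hk⟩ := hev
      exact ⟨k - 1, by omega⟩
    refine twin_of h hv hvp hf hQv hm (Or.inl ⟨rfl, he⟩) (one_mul _) (one_mul _)
      (exists_psp_tor_plus (by omega) (by omega) (Or.inl ⟨oA, dvd_rfl⟩))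
      (exists_psp_tor_minus (by omega) (by omega) (Or.inl ⟨hev.add_one, dvd_rfl⟩)) hcard hchar hadj ?_
    rintro - r s hr hs hr2 hs2 hrs hrd hsd hrn hsn hex
    obtain ⟨y, hy⟩ := hex
    obtain ⟨h1, hmo⟩ := Cfsg.Agent.H219.UF.order_minus hq (by omega) hr hrd hrn hm
    have h2 := Cfsg.Agent.H219.UF.order_plus hq (by omega) hs hs2 hsd hsn
    have hchar2 : CharP F 2 := by
      obtain ⟨t, ht⟩ := CharP.exists F
      obtain ⟨k, htp, hk⟩ := FiniteField.card F t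
      rw [Nat.card_eq_fintype_card, hk] at he
      have h3 : 2 ∣ t ^ (k : ℕ) := even_iff_two_dvd.1 he
      have h4 : 2 = t := (Nat.prime_dvd_prime_iff_eq Nat.prime_two htp).1 (Nat.prime_two.dvd_of_dvd_pow h3)
      rw [h4]
      exact ht
    rw [Nat.card_eq_fintype_card] at h1 h2
    have hm3 : m ≠ 2 := by
      rintro rfl
      exact absurd hmo (by decide)
    have := Fact.mk Nat.prime_two
    have hdr : r * s ∣ Nat.card (PSp m F) := hy ▸ orderOf_dvd_natCard y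
    have h5 := (Cfsg.Agent.S2469.result (F := F) 2 m hm (fun h => absurd h hm3) r s hr hs hr2 hs2 hr2 hs2 hrs
      ((dvd_mul_right r s).trans hdr) ((dvd_mul_left s r).trans hdr) m (2 * m) m m h1.symm h2.symm (Or.inl ⟨hmo, rfl⟩)
      (Or.inr ⟨even_two_mul m, rfl⟩) le_rfl).2 ⟨by omega, ?_⟩
    · exact h5 ⟨y, hy⟩
    · rintro ⟨t, ht, htm⟩
      have h6 : t = 2 := by
        have : m * t = m * 2 := by omega
        exact Nat.eq_of_mul_eq_mul_left (by omega) this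
      rw [h6] at ht
      exact absurd ht (by decide)
  · have hod : Odd (Nat.card F ^ m) := ho.pow
    obtain ⟨k, hk⟩ := hod
    exact twin_of (A := k) (B := k + 1) h hv hvp hf hQv hm (Or.inr ⟨rfl, ho⟩) (by omega) (by omega)
      (exists_psp_tor_plus (by omega) (by omega) (Or.inr ⟨1, by omega⟩))
      (exists_psp_tor_minus (by omega) (by omega) (Or.inr ⟨1, by omega⟩)) hcard hchar hadj
      (fun h => absurd h (by norm_num))

/-- **`Ω_{2m+1}(u)`** -/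
theorem row_omegaOdd (ho : Odd (Nat.card F)) {m : ℕ} (hm : 3 ≤ m) {p M : ℕ} {x : ℤ} (hpF : (p : F) ≠ 0)
    (h : Cand p x M (Cfsg.POmega F (Cfsg.quadFormOdd m F))) : False := by
  classical
  have hq : 1 < Nat.card F := Finite.one_lt_card
  have hfin : Finite (POmega F (quadFormOdd m F)) := inferInstance
  obtain ⟨v, f, hv, hvp, hf, hQv⟩ := exists_char hpF
  have hcard : Nat.card (POmega F (quadFormOdd m F)) ∣ Nat.card F ^ (m ^ 2) *
      ∏ i ∈ Finset.range m, (Nat.card F ^ (2 * (i + 1)) - 1) := by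
    have h1 := Cfsg.Agent.S0292.result (F := F) rfl (by rwa [← Nat.card_eq_fintype_card]) m hm
    rw [← Nat.card_eq_fintype_card] at h1
    rw [← h1]
    exact dvd_mul_left _ _
  have hpow : 2 ≤ Nat.card F ^ m := le_trans (by omega) (Nat.le_self_pow (by omega) _)
  have hod : Odd (Nat.card F ^ m) := ho.pow
  obtain ⟨k, hk⟩ := hod
  exact twin_of (A := k) (B := k + 1) h hv hvp hf hQv (by omega) (Or.inr ⟨rfl, ho⟩) (by omega) (by omega)
      (OOdd.exists_even_tor ho hm (elt_tor_plus (by omega) (N := 2 * k) ⟨1, by omega⟩))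
      (OOdd.exists_even_tor ho hm (elt_tor_minus (by omega) (N := 2 * (k + 1)) ⟨1, by omega⟩)) hcard
      (fun u hu hu2 hd => OOdd.adj_two_of_char ho hm hu hu2 hd)
      (fun u i hu hu2 hi him hd => OOdd.adj_two_of_dvd ho hm hi him hu hu2 hd)
      (fun h => absurd h (by norm_num))

end

end Cfsg.Agent.R2.Spec.X3.PO
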